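import Cfsg.Agent.SOLV.Frattini
import Cfsg.Agent.FGS.CoprimeIndex
import Cfsg.Prelude.Def_SolvableStructure

/-!
Hall complement systems, Sylow systems and system normalizers.
-/

set_option autoImplicit false
open Pointwise Cfsg

namespace CL

variable {G G' : Type*} [Group G] [Group G']

section crt
variable [Finite G] {H : Nat.Primes → Subgroup G}

theorem crt_of_finite (hH : ∀ p : Nat.Primes, IsPiNum {(p : ℕ)} (H p).index) {s : Set Nat.Primes}
    (hs : s.Finite) : IsPiNum (Subtype.val '' s) (⨅ p ∈ s, H p).index ∧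
      ∀ g : Nat.Primes → G, ∃ x : G, ∀ p ∈ s, (g p)⁻¹ * x ∈ H p := by
  induction s, hs using Set.Finite.induction_on with
  | empty => exact ⟨by simpa using IsPiNum.one _, fun _ => ⟨1, by simp⟩⟩
  | @insert a s ha _ ih =>
    have hc : (⨅ p ∈ s, H p).index.Coprime (H a).index :=
      ih.1.coprime ((hH a).mono (by
        rintro _ rfl ⟨q, hq, e⟩
        exact ha (Subtype.ext e ▸ hq)))
    refine ⟨?_, fun g => ?_⟩
    · rw [iInf_insert, inf_comm, index_inf_of_coprime_index _ _ hc]
      exact (ih.1.mono (Set.image_mono (Set.subset_insert a s))).mul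
        ((hH a).mono (by rintro _ rfl; exact ⟨a, Set.mem_insert a s, rfl⟩))
    · obtain ⟨x, hx⟩ := ih.2 g
      obtain ⟨d, hd, h, hh, e⟩ := exists_mul_eq_of_coprime_index _ _ hc (x⁻¹ * g a)
      refine ⟨x * d, ?_⟩
      rintro p (rfl | hp)
      · have : (g p)⁻¹ * (x * d) = h⁻¹ := by
          rw [← mul_right_inj x, mul_inv_cancel_left] at e
          rw [e]; group
        rw [this]; exact (H p).inv_mem hh
      · rw [← mul_assoc]
        exact (H p).mul_mem (hx p hp) (Subgroup.mem_iInf.mp (Subgroup.mem_iInf.mp hd p) hp)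

theorem eq_top_of_isPiNum_index_of_not_dvd {p : ℕ} {K : Subgroup G} (h : IsPiNum {p} K.index)
    (hp : ¬ p ∣ Nat.card G) : K = ⊤ :=
  Subgroup.index_eq_one.mp (h.eq_one fun _ _ hq e => hp (e ▸ hq.trans K.index_dvd_card))

theorem finite_primes_dvd_card (G : Type*) [Group G] [Finite G] :
    {p : Nat.Primes | (p : ℕ) ∣ Nat.card G}.Finite :=
  Set.Finite.preimage (f := Subtype.val) (s := {d | d ∣ Nat.card G}) Subtype.val_injective.injOn
    ((Set.finite_le_nat _).subset fun _ h => Nat.le_of_dvd Nat.card_pos h)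

/-- Chinese remainder theorem for cosets of subgroups of prime power index. -/
theorem exists_forall_inv_mul_mem (hH : ∀ p : Nat.Primes, IsPiNum {(p : ℕ)} (H p).index)
    (g : Nat.Primes → G) : ∃ x : G, ∀ p, (g p)⁻¹ * x ∈ H p := by
  obtain ⟨x, hx⟩ := (crt_of_finite hH (finite_primes_dvd_card G)).2 g
  refine ⟨x, fun p => ?_⟩
  by_cases hp : (p : ℕ) ∣ Nat.card G
  · exact hx p hp
  · rw [eq_top_of_isPiNum_index_of_not_dvd (hH p) hp]; trivial

theorem isPiNum_index_iInf (hH : ∀ p : Nat.Primes, IsPiNum {(p : ℕ)} (H p).index) (π : Set ℕ) :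
    IsPiNum πᶜ (⨅ p : Nat.Primes, ⨅ _ : (p : ℕ) ∉ π, H p).index := by
  have h1 := (crt_of_finite hH ((finite_primes_dvd_card G).inter_of_left
    {p : Nat.Primes | (p : ℕ) ∉ π})).1
  refine (h1.mono (by rintro _ ⟨q, hq, rfl⟩; exact hq.2)).of_dvd (Subgroup.index_dvd_of_le ?_)
  refine le_iInf fun p => le_iInf fun hp => ?_
  by_cases hd : (p : ℕ) ∣ Nat.card G
  · exact iInf₂_le p ⟨hd, hp⟩
  · rw [eq_top_of_isPiNum_index_of_not_dvd (hH p) hd]; exact le_top

end crt

theorem isPiHall_compl_iff_index_eq [Finite G] {p : ℕ} (hp : p.Prime) {K : Subgroup G} :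
    IsPiHall {p}ᶜ K ↔ K.index = p ^ (Nat.card G).factorization p := by
  have := Fact.mk hp
  obtain ⟨P⟩ : Nonempty (Sylow p G) := inferInstance
  rw [← P.card_eq_multiplicity]
  constructor
  · intro h
    exact (IsPiHall.isComplement' (isPiHall_sylow P) h).index_eq_card
  · intro h
    have h1 := isPiHall_iff.mp (isPiHall_sylow P)
    have h2 : Nat.card K = (P : Subgroup G).index := by
      have h3 := K.card_mul_index
      rw [h, ← (P : Subgroup G).card_mul_index, mul_comm] at h3
      exact Nat.eq_of_mul_eq_mul_left Nat.card_pos h3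
    rw [isPiHall_iff, h, h2, compl_compl]
    exact ⟨h1.2, h1.1⟩

theorem isComplementSystem_iff [Finite G] {K : Nat.Primes → Subgroup G} :
    IsComplementSystem K ↔ ∀ p : Nat.Primes, IsPiHall {(p : ℕ)}ᶜ (K p) :=
  forall_congr' fun p => (isPiHall_compl_iff_index_eq p.2).symm

theorem IsPiHall.isPiNum_index_of_compl {π : Set ℕ} {K : Subgroup G} (h : IsPiHall πᶜ K) :
    IsPiNum π K.index := by
  simpa only [compl_compl] using (isPiHall_iff.mp h).2

theorem exists_isComplementSystem (G : Type*) [Group G] [Finite G] [Group.IsSolvable G] :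
    ∃ K : Nat.Primes → Subgroup G, IsComplementSystem K := by
  choose K hK using fun p : Nat.Primes => exists_isPiHall {(p : ℕ)}ᶜ G
  exact ⟨K, isComplementSystem_iff.mpr hK⟩

/-- The Hall `π`-subgroup of a complement system. -/
def systemHall (K : Nat.Primes → Subgroup G) (π : Set ℕ) : Subgroup G :=
  ⨅ p : Nat.Primes, ⨅ _ : (p : ℕ) ∉ π, K p

theorem systemHall_le (K : Nat.Primes → Subgroup G) {π : Set ℕ} {p : Nat.Primes}
    (hp : (p : ℕ) ∉ π) : systemHall K π ≤ K p :=
  iInf₂_le p hp

theorem systemHall_mono (K : Nat.Primes → Subgroup G) {π σ : Set ℕ} (h : π ⊆ σ) :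
    systemHall K π ≤ systemHall K σ :=
  le_iInf₂ fun _ hp => systemHall_le K fun h' => hp (h h')

theorem mem_systemNormalizer {K : Nat.Primes → Subgroup G} {g : G} :
    g ∈ systemNormalizer K ↔ ∀ p, g ∈ Subgroup.normalizer (K p : Set G) :=
  Subgroup.mem_iInf

theorem le_systemNormalizer {K : Nat.Primes → Subgroup G} {H : Subgroup G} :
    H ≤ systemNormalizer K ↔ ∀ p, H ≤ Subgroup.normalizer (K p : Set G) :=
  le_iInf_iff

theorem systemNormalizer_le (K : Nat.Primes → Subgroup G) (p : Nat.Primes) :
    systemNormalizer K ≤ Subgroup.normalizer (K p : Set G) :=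
  iInf_le _ p

theorem systemNormalizer_le_normalizer_systemHall (K : Nat.Primes → Subgroup G) (π : Set ℕ) :
    systemNormalizer K ≤ Subgroup.normalizer (systemHall K π : Set G) :=
  (le_iInf fun p => (le_iInf fun _ => systemNormalizer_le K p).trans
    (Subgroup.iInf_normalizer_le_normalizer_iInf _)).trans
    (Subgroup.iInf_normalizer_le_normalizer_iInf _)

theorem systemNormalizer_conj_smul (K : Nat.Primes → Subgroup G) (g : G) :
    systemNormalizer (fun p => MulAut.conj g • K p) = MulAut.conj g • systemNormalizer K := by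
  ext x
  simp only [mem_systemNormalizer, mem_conj_smul_iff, normalizer_conj_smul]

theorem center_le_systemNormalizer (K : Nat.Primes → Subgroup G) :
    Subgroup.center G ≤ systemNormalizer K :=
  le_systemNormalizer.mpr fun _ => Subgroup.center_le_normalizer _

section system
variable [Finite G] {K L : Nat.Primes → Subgroup G}

theorem IsComplementSystem.isPiHall (hK : IsComplementSystem K) (p : Nat.Primes) :
    IsPiHall {(p : ℕ)}ᶜ (K p) :=
  isComplementSystem_iff.mp hK p

theorem IsComplementSystem.isPiNum_index (hK : IsComplementSystem K) (p : Nat.Primes) :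
    IsPiNum {(p : ℕ)} (K p).index :=
  IsPiHall.isPiNum_index_of_compl (IsComplementSystem.isPiHall hK p)

theorem IsComplementSystem.isPiNum_card (hK : IsComplementSystem K) (p : Nat.Primes) :
    IsPiNum {(p : ℕ)}ᶜ (Nat.card (K p)) :=
  (isPiHall_iff.mp (IsComplementSystem.isPiHall hK p)).1

theorem IsComplementSystem.isPiHall_systemHall (hK : IsComplementSystem K) (π : Set ℕ) :
    IsPiHall π (systemHall K π) :=
  isPiHall_iff.mpr ⟨fun q hq hd => by_contra fun hn =>
      IsComplementSystem.isPiNum_card hK ⟨q, hq⟩ q hq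
        (hd.trans (Subgroup.card_dvd_of_le (systemHall_le K hn))) rfl,
    isPiNum_index_iInf (IsComplementSystem.isPiNum_index hK) π⟩

theorem IsComplementSystem.conj_smul (hK : IsComplementSystem K) (g : G) :
    IsComplementSystem fun p => MulAut.conj g • K p :=
  isComplementSystem_iff.mpr fun p => IsPiHall.conj_smul (IsComplementSystem.isPiHall hK p) g

theorem IsComplementSystem.map [Finite G'] (hK : IsComplementSystem K) {f : G →* G'}
    (hf : Function.Surjective f) : IsComplementSystem fun p => (K p).map f :=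
  isComplementSystem_iff.mpr fun p => IsPiHall.map (IsComplementSystem.isPiHall hK p) hf

/-- Any two complement systems of a solvable group are conjugate. -/
theorem IsComplementSystem.exists_conj_eq [Group.IsSolvable G] (hK : IsComplementSystem K)
    (hL : IsComplementSystem L) : ∃ g : G, ∀ p, MulAut.conj g • K p = L p := by
  choose g hg using fun p => IsPiHall.exists_conj_eq (IsComplementSystem.isPiHall hK p)
    (IsComplementSystem.isPiHall hL p)
  obtain ⟨x, hx⟩ := exists_forall_inv_mul_mem (IsComplementSystem.isPiNum_index hK) g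
  refine ⟨x, fun p => ?_⟩
  rw [← hg p, ← mul_inv_cancel_left (g p) x, ← conj_smul_conj_smul, conj_smul_of_mem (hx p)]

/-- Subgroups of coprime index inside `M` have product `M`. -/
theorem coe_mul_coe_eq_of_coprime_relIndex {A B M : Subgroup G} (hA : A ≤ M) (hB : B ≤ M)
    (h : (A.relIndex M).Coprime (B.relIndex M)) : (A : Set G) * B = M := by
  refine Set.Subset.antisymm ?_ fun x hx => ?_
  · rintro _ ⟨a, ha, b, hb, rfl⟩
    exact M.mul_mem (hA ha) (hB hb)
  · obtain ⟨a, ha, b, hb, e⟩ := exists_mul_eq_of_coprime_index (A.subgroupOf M) (B.subgroupOf M) h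
      ⟨x, hx⟩
    exact ⟨a, ha, b, hb, (congrArg Subtype.val e).symm⟩

/-- The Hall subgroups of a complement system permute: `H_π H_σ = H_{π ∪ σ}`. -/
theorem IsComplementSystem.systemHall_mul (hK : IsComplementSystem K) (π σ : Set ℕ) :
    (systemHall K π : Set G) * systemHall K σ = systemHall K (π ∪ σ) := by
  have h1 := systemHall_mono K (Set.subset_union_left : π ⊆ π ∪ σ)
  have h2 := systemHall_mono K (Set.subset_union_right : σ ⊆ π ∪ σ)
  refine coe_mul_coe_eq_of_coprime_relIndex h1 h2 (IsPiNum.coprime (π := πᶜ)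
    (IsPiHallOf.relIndex (IsPiHall.isPiHallOf (IsComplementSystem.isPiHall_systemHall hK π) h1))
    fun q hq hd hn => ?_)
  rcases (isPiHall_iff.mp (IsComplementSystem.isPiHall_systemHall hK (π ∪ σ))).1 q hq
    (hd.trans (Subgroup.relIndex_dvd_card _ _)) with h | h
  · exact hn h
  · exact IsPiHallOf.relIndex (IsPiHall.isPiHallOf (IsComplementSystem.isPiHall_systemHall hK σ) h2)
      q hq hd h

/-- A solvable group has a Sylow system. -/
theorem exists_sylowSystem (G : Type*) [Group G] [Finite G] [Group.IsSolvable G] :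
    ∃ S : (p : Nat.Primes) → Sylow (p : ℕ) G,
      ∀ p q : Nat.Primes, (S p : Set G) * (S q : Set G) = (S q : Set G) * (S p : Set G) := by
  obtain ⟨K, hK⟩ := exists_isComplementSystem G
  choose S hS using fun p : Nat.Primes => (isPiHall_singleton_iff (hp := factPrime p)).mp
    (IsComplementSystem.isPiHall_systemHall hK {(p : ℕ)})
  refine ⟨S, fun p q => ?_⟩
  have h1 := IsComplementSystem.systemHall_mul hK {(p : ℕ)} {(q : ℕ)}
  rw [Set.union_comm, ← IsComplementSystem.systemHall_mul hK, ← hS, ← hS] at h1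
  exact h1

/-- The complement system `K` reduces into the subgroup `U`. -/
def ReducesInto (K : Nat.Primes → Subgroup G) (U : Subgroup G) : Prop :=
  ∀ p : Nat.Primes, IsPiNum {(p : ℕ)} ((K p).relIndex U)

theorem IsComplementSystem.subgroupOf {U : Subgroup G} (hK : IsComplementSystem K)
    (h : ReducesInto K U) : IsComplementSystem fun p => (K p).subgroupOf U :=
  isComplementSystem_iff.mpr fun p => isPiHall_iff.mpr ⟨by
    rw [card_subgroupOf_eq]
    exact (IsComplementSystem.isPiNum_card hK p).of_dvd (Subgroup.card_dvd_of_le inf_le_left),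
    by rw [compl_compl]; exact h p⟩

theorem IsComplementSystem.isPiHallOf_inf {U : Subgroup G} (hK : IsComplementSystem K)
    (h : ReducesInto K U) (p : Nat.Primes) : IsPiHallOf {(p : ℕ)}ᶜ (K p ⊓ U) U := by
  rw [← Subgroup.subgroupOf_map_subtype, isPiHallOf_map_subtype_iff]
  exact IsComplementSystem.isPiHall (IsComplementSystem.subgroupOf hK h) p

theorem reducesInto_of_isPiHallOf {U : Subgroup G}
    (h : ∀ p : Nat.Primes, ∃ L, L ≤ K p ∧ IsPiHallOf {(p : ℕ)}ᶜ L U) : ReducesInto K U := fun p => by
  obtain ⟨L, h1, h2⟩ := h p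
  simpa only [compl_compl] using
    (IsPiHallOf.relIndex h2).of_dvd (Subgroup.relIndex_dvd_of_le_left U h1)

theorem IsComplementSystem.reducesInto_of_isSubnormal {U : Subgroup G} (hK : IsComplementSystem K)
    (hU : U.IsSubnormal) : ReducesInto K U :=
  reducesInto_of_isPiHallOf fun p =>
    ⟨_, inf_le_left, IsPiHall.inf_isSubnormal (IsComplementSystem.isPiHall hK p) hU⟩

theorem IsComplementSystem.reducesInto_of_normal (hK : IsComplementSystem K) (N : Subgroup G)
    [hN : N.Normal] : ReducesInto K N :=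
  IsComplementSystem.reducesInto_of_isSubnormal hK hN.isSubnormal

theorem IsComplementSystem.reducesInto_of_le_systemNormalizer {U : Subgroup G}
    (hK : IsComplementSystem K) (hU : U ≤ systemNormalizer K) : ReducesInto K U := fun p => by
  have := normal_subgroupOf_of_le_normalizer (le_refl (Subgroup.normalizer (K p : Set G)))
  refine (IsComplementSystem.isPiNum_index hK p).of_dvd (Dvd.dvd.trans ?_
    (Subgroup.relIndex_dvd_index_of_le Subgroup.le_normalizer))
  rw [← Subgroup.relIndex_subgroupOf (hU.trans (systemNormalizer_le K p))]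
  exact Subgroup.relIndex_dvd_index_of_normal _ _

omit [Finite G] in
theorem ReducesInto.subgroupOf {U V : Subgroup G} (h : ReducesInto K U) (hUV : U ≤ V) :
    ReducesInto (fun p => (K p).subgroupOf V) (U.subgroupOf V) := fun p => by
  rw [Subgroup.relIndex_subgroupOf hUV]; exact h p

theorem ReducesInto.map {U : Subgroup G} (hK : IsComplementSystem K) (h : ReducesInto K U)
    [Finite G'] (f : G →* G') : ReducesInto (fun p => (K p).map f) (U.map f) :=
  reducesInto_of_isPiHallOf fun p => ⟨_, Subgroup.map_mono inf_le_left,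
    IsPiHallOf.map (IsComplementSystem.isPiHallOf_inf hK h p) f⟩

theorem IsPiHallOf.sup_of_le_normalizer {π : Set ℕ} {A B U N : Subgroup G} (hA : IsPiHallOf π A U)
    (hB : IsPiHallOf π B N) (hn : U ≤ Subgroup.normalizer (N : Set G))
    (hAB : IsPiNum π (Nat.card ↥(A ⊔ B))) : IsPiHallOf π (A ⊔ B) (U ⊔ N) := by
  have hle := sup_le_sup hA.1 hB.1
  refine isPiHallOf_iff.mpr ⟨hle, hAB, fun q hq hd hπ => ?_⟩
  have h1 : IsPiNum πᶜ ((A ⊔ N).relIndex (U ⊔ N)) := by
    have := normal_subgroupOf_of_le_normalizer (sup_le hn Subgroup.le_normalizer)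
    have h2 := IsPiHallOf.relIndex (IsPiHallOf.map (show IsPiHallOf π (A.subgroupOf (U ⊔ N))
      (U.subgroupOf (U ⊔ N)) from isPiHallOf_iff.mpr ⟨Subgroup.comap_mono hA.1, by
        rw [card_subgroupOf_of_le (hA.1.trans le_sup_left)]; exact IsPiHallOf.isPiNum hA, by
        rw [Subgroup.relIndex_subgroupOf le_sup_left]; exact IsPiHallOf.relIndex hA⟩)
      (QuotientGroup.mk' (N.subgroupOf (U ⊔ N))))
    rwa [Subgroup.relIndex_map_map, QuotientGroup.ker_mk',
      ← Subgroup.subgroupOf_sup (hA.1.trans le_sup_left) le_sup_right,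
      ← Subgroup.subgroupOf_sup le_sup_left le_sup_right, Subgroup.relIndex_subgroupOf le_rfl] at h2
  have h2 : (A ⊔ B).relIndex (A ⊔ N) = (A ⊔ B).relIndex N := by
    have hn' : A ⊔ B ≤ Subgroup.normalizer (N : Set G) :=
      sup_le (hA.1.trans hn) (hB.1.trans Subgroup.le_normalizer)
    have h3 := card_sup_mul_card_inf_of_le_normalizer hn'
    rw [sup_assoc, sup_of_le_right hB.1, ← card_mul_relIndex_of_le (sup_le_sup_left hB.1 A),
      ← card_inf_mul_relIndex (A ⊔ B) N, mul_assoc, mul_comm (Nat.card ↥((A ⊔ B) ⊓ N))] at h3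
    exact Nat.eq_of_mul_eq_mul_right Nat.card_pos (Nat.eq_of_mul_eq_mul_left Nat.card_pos h3)
  rw [← Subgroup.relIndex_mul_relIndex _ _ _ (sup_le_sup_left hB.1 A) (sup_le_sup_right hA.1 N),
    h2] at hd
  rcases (Nat.Prime.dvd_mul hq).mp hd with h | h
  · exact IsPiHallOf.relIndex hB q hq (h.trans (Subgroup.relIndex_dvd_of_le_left N le_sup_right)) hπ
  · exact h1 q hq h hπ

theorem ReducesInto.isPiHallOf_sup {U N : Subgroup G} (hK : IsComplementSystem K)
    (hU : ReducesInto K U) (hN : ReducesInto K N) (hn : U ≤ Subgroup.normalizer (N : Set G))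
    (p : Nat.Primes) : IsPiHallOf {(p : ℕ)}ᶜ ((K p ⊓ U) ⊔ (K p ⊓ N)) (U ⊔ N) :=
  IsPiHallOf.sup_of_le_normalizer (IsComplementSystem.isPiHallOf_inf hK hU p)
    (IsComplementSystem.isPiHallOf_inf hK hN p) hn ((IsComplementSystem.isPiNum_card hK p).of_dvd
      (Subgroup.card_dvd_of_le (sup_le inf_le_left inf_le_left)))

theorem ReducesInto.sup {U N : Subgroup G} (hK : IsComplementSystem K)
    (hU : ReducesInto K U) (hN : ReducesInto K N) (hn : U ≤ Subgroup.normalizer (N : Set G)) :
    ReducesInto K (U ⊔ N) :=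
  reducesInto_of_isPiHallOf fun p =>
    ⟨_, sup_le inf_le_left inf_le_left, ReducesInto.isPiHallOf_sup hK hU hN hn p⟩

/-- For every subgroup `U` of a solvable group some complement system reduces into `U`. -/
theorem exists_isComplementSystem_reducesInto [Group.IsSolvable G] (U : Subgroup G) :
    ∃ K : Nat.Primes → Subgroup G, IsComplementSystem K ∧ ReducesInto K U := by
  choose L hL using fun p : Nat.Primes => exists_isPiHallOf {(p : ℕ)}ᶜ U inferInstance
  choose K hK hLK using fun p : Nat.Primes => exists_isPiHall_ge (IsPiHallOf.isPiNum (hL p))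
  exact ⟨K, isComplementSystem_iff.mpr hK, reducesInto_of_isPiHallOf fun p => ⟨_, hLK p, hL p⟩⟩

/-- A group with a normal `p`-complement for every prime `p` is nilpotent. -/
theorem IsComplementSystem.isNilpotent_of_eq_top (hK : IsComplementSystem K)
    (h : systemNormalizer K = ⊤) : Group.IsNilpotent G := by
  refine isNilpotent_iff_sylow_normal.mpr fun p _ P => ?_
  have h1 : (systemHall K {p}).Normal := Subgroup.normalizer_eq_top_iff.mp
    (eq_top_iff.mpr (h.ge.trans (systemNormalizer_le_normalizer_systemHall K _)))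
  obtain ⟨Q, hQ⟩ := isPiHall_singleton_iff.mp (IsComplementSystem.isPiHall_systemHall hK {p})
  rw [← hQ] at h1
  have := Sylow.unique_of_normal Q h1
  rwa [Subsingleton.elim P Q]

omit [Finite G] in
theorem subgroupOf_systemNormalizer_le (K : Nat.Primes → Subgroup G) (U : Subgroup G) :
    (systemNormalizer K).subgroupOf U ≤ systemNormalizer fun p => (K p).subgroupOf U :=
  le_systemNormalizer.mpr fun p =>
    (Subgroup.comap_mono (systemNormalizer_le K p)).trans (Subgroup.le_normalizer_comap _)

/-- System normalizers are nilpotent. -/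
theorem IsComplementSystem.isNilpotent_systemNormalizer (hK : IsComplementSystem K) :
    Group.IsNilpotent (systemNormalizer K) :=
  IsComplementSystem.isNilpotent_of_eq_top (IsComplementSystem.subgroupOf hK
    (IsComplementSystem.reducesInto_of_le_systemNormalizer hK le_rfl))
    (eq_top_iff.mpr ((Subgroup.subgroupOf_self _).ge.trans (subgroupOf_systemNormalizer_le K _)))

/-- System normalizers pass to quotients. -/
theorem IsComplementSystem.systemNormalizer_map_mk' [Group.IsSolvable G]
    (hK : IsComplementSystem K) (N : Subgroup G) [N.Normal] :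
    systemNormalizer (fun p => (K p).map (QuotientGroup.mk' N)) =
      (systemNormalizer K).map (QuotientGroup.mk' N) := by
  refine le_antisymm (fun y hy => ?_)
    (le_systemNormalizer.mpr fun p => map_le_normalizer_map _ (systemNormalizer_le K p))
  obtain ⟨x, rfl⟩ := QuotientGroup.mk'_surjective N y
  have h1 : ∀ p, ∃ n : N, x * n ∈ Subgroup.normalizer (K p : Set G) := fun p => by
    have h2 : x⁻¹ ∈ Subgroup.normalizer ((K p ⊔ N : Subgroup G) : Set G) := by
      rw [← comap_map_mk']
      exact Subgroup.le_normalizer_comap _ (Subgroup.inv_mem _ (mem_systemNormalizer.mp hy p))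
    have h3 := IsPiHallOf.frattini (H := K p) (L := K p ⊔ N) inferInstance
      (IsPiHall.isPiHallOf (IsComplementSystem.isPiHall hK p) le_sup_left) le_rfl h2
    rw [sup_comm (K p), sup_assoc, sup_of_le_right Subgroup.le_normalizer, ← SetLike.mem_coe,
      Subgroup.normal_mul] at h3
    obtain ⟨n, hn, k, hk, e⟩ := h3
    refine ⟨⟨n, hn⟩, ?_⟩
    have : x * n = k⁻¹ := by
      rw [← inv_inv x, ← e]; simp
    rw [this]; exact Subgroup.inv_mem _ hk
  choose n hn using h1
  obtain ⟨m, hm⟩ := exists_forall_inv_mul_mem (IsComplementSystem.reducesInto_of_normal hK N) n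
  refine ⟨x * m, mem_systemNormalizer.mpr fun p => ?_, by simp⟩
  have := Subgroup.mul_mem _ (hn p) (Subgroup.le_normalizer (hm p))
  simpa [mul_assoc] using this

/-- The normal closure of a system normalizer is the whole group. -/
theorem IsComplementSystem.normalClosure_systemNormalizer [Group.IsSolvable G]
    (hK : IsComplementSystem K) :
    Subgroup.normalClosure ((systemNormalizer K : Subgroup G) : Set G) = ⊤ := by
  by_contra h
  set N := Subgroup.normalClosure ((systemNormalizer K : Subgroup G) : Set G)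
  have := nontrivial_quotient_of_ne_top h
  have h1 : commutator G ⊔ N ≠ ⊤ := fun e => by
    have h2 := congrArg (Subgroup.map (QuotientGroup.mk' N)) e
    rw [Subgroup.map_sup, (map_mk'_eq_bot_iff N N).mpr le_rfl, sup_bot_eq, map_commutator_eq,
      MonoidHom.range_eq_top.mpr (QuotientGroup.mk'_surjective N),
      Subgroup.map_top_of_surjective _ (QuotientGroup.mk'_surjective N)] at h2
    exact (Group.IsSolvable.commutator_lt_top_of_nontrivial (G ⧸ N)).ne h2
  have h3 : IsMulCommutative (G ⧸ (commutator G ⊔ N)) :=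
    Subgroup.Normal.quotient_commutative_iff_commutator_le.mpr le_sup_left
  have h4 := center_le_systemNormalizer fun p => (K p).map (QuotientGroup.mk' (commutator G ⊔ N))
  rw [IsComplementSystem.systemNormalizer_map_mk' hK, (map_mk'_eq_bot_iff _ _).mpr
    (Subgroup.le_normalClosure.trans le_sup_right), Subgroup.center_eq_top] at h4
  have := nontrivial_quotient_of_ne_top h1
  exact top_ne_bot (le_bot_iff.mp h4)

end system

/-- A non-central minimal normal `p`-subgroup of a solvable group has no nontrivial element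
centralized by a Hall `p'`-subgroup. -/
theorem IsMinNormal.inf_centralizer_eq_bot_of_isPiHall [Finite G] [Group.IsSolvable G] {p : ℕ}
    [Fact p.Prime] {V H : Subgroup G} (hV : IsMinNormal V) (hp : IsPGroup p V)
    (hc : ¬ V ≤ Subgroup.center G) (hH : IsPiHall {p}ᶜ H) :
    V ⊓ Subgroup.centralizer (H : Set G) = ⊥ := by
  have := hV.normal
  set C := Subgroup.centralizer (V : Set G) with hC
  have h1 : C ≠ ⊤ := fun e => hc (Subgroup.centralizer_eq_top_iff_subset.mp e)
  have := nontrivial_quotient_of_ne_top h1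
  obtain ⟨M, q, hM, hq, -, hMq⟩ := exists_isMinNormal_isElementaryAbelian (G ⧸ C)
  have := hM.normal
  have := Fact.mk hq
  have key : ∀ (π : Set ℕ) (L : Subgroup G), q ∈ π → IsPiHall π L →
      V ⊓ Subgroup.centralizer (L : Set G) = ⊥ := fun π L hπ hL => by
    have h2 : M.comap (QuotientGroup.mk' C) ≤ L ⊔ C := by
      rw [← comap_map_mk']
      exact Subgroup.comap_mono (IsPiHall.normal_le
        (IsPiHall.map hL (QuotientGroup.mk'_surjective C)) (IsPiNum.of_isPGroup hMq hπ))
    rcases hV.inf_eq_bot_or_le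
      (Subgroup.centralizer ((M.comap (QuotientGroup.mk' C) : Subgroup G) : Set G)) with h | h
    · refine eq_bot_iff.mpr (h ▸ le_inf inf_le_left (Subgroup.le_centralizer_iff.mp (h2.trans
        (sup_le (Subgroup.le_centralizer_iff.mp inf_le_right) ?_))))
      exact Subgroup.centralizer_le (SetLike.coe_subset_coe.mpr inf_le_left)
    · have h3 := (map_mk'_eq_bot_iff _ C).mpr (Subgroup.le_centralizer_iff.mp h)
      rw [map_comap_mk'] at h3
      exact (hM.ne_bot h3).elim
  refine key _ H (fun e => ?_) hH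
  obtain ⟨P⟩ : Nonempty (Sylow p G) := inferInstance
  exact inf_centralizer_ne_bot_of_isPGroup hp P.isPGroup'
    (by rw [Subgroup.normalizer_eq_top]; exact le_top) hV.ne_bot (key _ _ e (isPiHall_sylow P))

theorem inf_normalizer_le_centralizer_of_disjoint {V H : Subgroup G}
    (hn : H ≤ Subgroup.normalizer (V : Set G)) (hd : V ⊓ H = ⊥) :
    V ⊓ Subgroup.normalizer (H : Set G) ≤ Subgroup.centralizer (H : Set G) := by
  rw [← Subgroup.commutator_eq_bot_iff_le_centralizer, eq_bot_iff, ← hd]
  exact le_inf ((Subgroup.commutator_mono inf_le_left le_rfl).trans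
      (Subgroup.le_normalizer_iff_commutator_le_left.mp hn))
    (Subgroup.le_normalizer_iff_commutator_le_right.mp inf_le_right)

theorem IsComplementSystem.inf_systemNormalizer_eq_bot [Finite G] [Group.IsSolvable G]
    {K : Nat.Primes → Subgroup G} (hK : IsComplementSystem K) {V : Subgroup G}
    (hV : IsMinNormal V) (hc : ¬ V ≤ Subgroup.center G) : V ⊓ systemNormalizer K = ⊥ := by
  obtain ⟨p, hp, h⟩ := hV.exists_isPGroup_of_isSolvable inferInstance
  have := Fact.mk hp
  have := hV.normal
  have h1 := IsComplementSystem.isPiHall hK ⟨p, hp⟩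
  rw [eq_bot_iff, ← hV.inf_centralizer_eq_bot_of_isPiHall h hc h1]
  refine le_inf inf_le_left ((inf_le_inf_left V (systemNormalizer_le K ⟨p, hp⟩)).trans
    (inf_normalizer_le_centralizer_of_disjoint
      (by rw [Subgroup.normalizer_eq_top]; exact le_top) ?_))
  exact (Subgroup.disjoint_of_coprime_natCard
    ((isPGroup_iff_isPiNum.mp h).coprime (isPiHall_iff.mp h1).1)).eq_bot

/-- A system normalizer covers the central and avoids the non-central chief factors. -/
theorem IsComplementSystem.cover_avoid [Finite G] [Group.IsSolvable G]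
    {K : Nat.Primes → Subgroup G} (hK : IsComplementSystem K) {A B : Subgroup G} [A.Normal]
    [B.Normal] (hAB : A < B) (hchief : ∀ N : Subgroup G, N.Normal → A ≤ N → N ≤ B → N = A ∨ N = B) :
    (⁅B, (⊤ : Subgroup G)⁆ ≤ A → B ≤ A ⊔ systemNormalizer K) ∧
      (¬ ⁅B, (⊤ : Subgroup G)⁆ ≤ A → B ⊓ systemNormalizer K ≤ A) := by
  have h1 : B.map (QuotientGroup.mk' A) ≤ Subgroup.center (G ⧸ A) ↔ ⁅B, (⊤ : Subgroup G)⁆ ≤ A := by
    rw [← map_mk'_eq_bot_iff _ A, Subgroup.map_commutator,
      Subgroup.map_top_of_surjective _ (QuotientGroup.mk'_surjective A),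
      Subgroup.commutator_eq_bot_iff_le_centralizer, Subgroup.coe_top, Subgroup.centralizer_univ]
  constructor
  · intro h
    rw [sup_comm, ← map_mk'_le_map_mk'_iff, ← IsComplementSystem.systemNormalizer_map_mk' hK]
    exact (h1.mpr h).trans (center_le_systemNormalizer _)
  · intro h
    have h2 := IsComplementSystem.inf_systemNormalizer_eq_bot
      (IsComplementSystem.map hK (QuotientGroup.mk'_surjective A))
      (isMinNormal_map_mk'_of_chief hAB hchief) (mt h1.mp h)
    rw [IsComplementSystem.systemNormalizer_map_mk' hK] at h2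
    rw [← map_mk'_eq_bot_iff, eq_bot_iff, ← h2]
    exact Subgroup.map_inf_le _ _ _

end CL
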