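/-
The automorphism group of the Conway-Wales lattice as a model for computations with words.
-/
import Cfsg.Agent.SPOR.RuMdl

set_option autoImplicit false

namespace CL.RuU

open CL.K CL.SchurC Cfsg.Spor CL.Ru
open scoped commutatorElement

local notation "ℤ[i]" => GaussianInt

theorem exists_lift {j : ℕ} (hj : j < 8) : ∃ g : fourRu, ∀ (i : Fin 4060) (k : Fin 4060),
    (k : ℕ) = sg (lget PL j) i → lm g (Xs i) = gI ^ fld 2 3 (lget EL j) i • Xs k := by
  have h := gens hj
  generalize hP : lget PL j = P at h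
  generalize lget EL j = E at h
  have h4 : (4 : ℤ[i]) ≠ 0 := by decide
  have h1 : ∀ v : LS, ∃ w : LS, F P E v = (4 : ℤ[i]) • w := fun v => by
    refine lat_ind (p := fun v => ∃ w : LS, F P E v = (4 : ℤ[i]) • w) ⟨0, by simp⟩ (fun i => ?_)
      (fun x _ y _ ⟨a, ha⟩ ⟨b, hb⟩ => ⟨a + b, by rw [map_add, ha, hb, Submodule.coe_add, smul_add]⟩)
      (fun c x ⟨a, ha⟩ => ⟨c • a, by rw [map_smul, ha, Submodule.coe_smul, smul_comm]⟩) v.2
    exact ⟨gI ^ fld 2 3 E i • Xs ⟨_, h.lt i.2⟩, h.F_X i i.2⟩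
  have h2 : ∀ w : LS, ∃ v : LS, F P E v = (4 : ℤ[i]) • w := fun w => by
    refine lat_ind (p := fun w => ∃ v : LS, F P E v = (4 : ℤ[i]) • w) ⟨0, by simp⟩ (fun i => ?_)
      (fun x _ y _ ⟨a, ha⟩ ⟨b, hb⟩ => ⟨a + b, by rw [Submodule.coe_add, map_add, ha, hb, smul_add]⟩)
      (fun c x ⟨a, ha⟩ => ⟨c • a, by rw [Submodule.coe_smul, map_smul, ha, smul_comm]⟩) w.2
    refine ⟨gI ^ (3 * fld 2 3 E ((gp j)⁻¹ • i : Fin 4060)) • Xs ((gp j)⁻¹ • i), ?_⟩
    rw [Submodule.coe_smul, map_smul, Xs, h.F_X _ (Fin.is_lt _), smul_comm, Y, smul_smul (gI ^ _), gI_pow_inv,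
      one_smul, ← hP, ← gp_smul hj, smul_inv_smul]
  choose f hf using h1
  choose f' hf' using h2
  have h3 : ∀ v, ruNorm (F P E v) = 16 * ruNorm v := fun v => by
    have := h.hp_F v v
    rw [hp_self, hp_self] at this
    exact_mod_cast this
  have h5 : ∀ {v w : LS}, F P E v = (4 : ℤ[i]) • w → f v = w := fun e =>
    Subtype.ext (smul_right_injective RuVec h4 ((hf _).symm.trans e))
  let g : fourRu := ⟨⟨f, f', fun v : LS => Subtype.ext (sub_eq_zero.1 (eq_zero_of_ruNorm (by
      have := h3 (f' (f v) - v)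
      rw [map_sub, hf', hf, sub_self, show ruNorm 0 = 0 by simp [ruNorm]] at this
      omega))), fun w => h5 (hf' w)⟩,
    fun v w : LS => h5 (((F P E).map_add v w).trans (by rw [hf, hf, ← smul_add]; rfl)),
    fun v : LS => h5 (((F P E).map_smul gI v).trans (by rw [hf v, smul_comm]; rfl)), fun v : LS => by
      have := h3 v
      rw [hf, ruNorm_smul, show Zsqrtd.norm (4 : ℤ[i]) = 16 from rfl] at this
      exact mul_left_cancel₀ (by decide) this⟩
  refine ⟨g, fun i k hk => h5 ?_⟩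
  show F P E (X i) = (4 : ℤ[i]) • (gI ^ fld 2 3 E i • X k)
  rw [hk]
  exact h.F_X i i.2

/-- the scalar correction of the generator `j` -/
noncomputable def sh (j : ℕ) : ℕ := Bool.rec (motive := fun _ => ℕ) 0 1 (Nat.ble 6 j)

/-- the generators -/
noncomputable def gs (j : ℕ) : fourRu := if h : j < 8 then ι ^ sh j * (exists_lift h).choose else 1

/-- the vector with a given number -/
noncomputable def dU (c : ℕ) : ruLattice := (gI ^ (c % 4) • Xs (dF (c / 4)) : LS)

/-- the action of the generators -/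
noncomputable def aU (j c : ℕ) : ℕ :=
  frc (Nat.shiftRight c 2) fun i => Nat.add (Nat.shiftLeft (aF j i) 2)
    (Nat.land (Nat.add (Nat.add c (sh j)) (fld 2 3 (lget EL j) i)) 3)

theorem aU_eq (j c : ℕ) : aU j c = aF j (c / 4) * 4 + (c + sh j + fld 2 3 (lget EL j) (c / 4)) % 4 := by
  show aF j (c >>> 2) <<< 2 + ((c + sh j + fld 2 3 (lget EL j) (c >>> 2)) &&& (2 ^ 2 - 1)) = _
  rw [Nat.and_two_pow_sub_one_eq_mod, Nat.shiftLeft_eq, Nat.shiftRight_eq_div_pow]

theorem smul_def (g : fourRu) (v : LS) : g • (show ruLattice from v) = lm g v := rfl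

theorem gI_pow_mod (k : ℕ) : gI ^ (k % 4) = gI ^ k := by
  conv_rhs => rw [← Nat.div_add_mod k 4, pow_add, pow_mul, show gI ^ 4 = 1 from rfl, one_pow, one_mul]

theorem X_ne (i : Fin 4060) : X i ≠ 0 := fun e => by
  have := norm_X i.2
  rw [e, show ruNorm 0 = 0 by simp [ruNorm]] at this
  omega

theorem pow_inj {a b : ℕ} (ha : a < 4) (hb : b < 4) (i : Fin 4060) (h : gI ^ a • X i = gI ^ b • X i) :
    a = b := by
  have := smul_left_injective ℤ[i] (X_ne i) h
  interval_cases a <;> interval_cases b <;> first | rfl | exact absurd this (by decide)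

theorem actU : ActMdl (GenI gs 8) dU (· < 16240) aU := by
  have hv : ∀ j c, c < 16240 → aF j (c / 4) < 4060 := fun j c hc => (mdl.rp j (c / 4) (by omega)).1
  refine ⟨fun j _ c _ hc => ?_, fun j _ c e hc => ?_, fun c c' hc hc' e => ?_⟩
  · have := hv j c hc
    rw [aU_eq]; omega
  · have h1 := hv j c hc
    have h2 : c / 4 < 4060 := by omega
    have h3 := (exists_lift e.1).choose_spec (dF (c / 4)) (dF (aF j (c / 4))) (by
      rw [dF_val h1, dF_val h2, aF_eq e.1])
    rw [e.2, gs, dif_pos e.1, dU, dU, smul_def, lm_mul, map_smul, h3, lm_ι_pow, aU_eq, dF_val h2,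
      show (aF j (c / 4) * 4 + (c + sh j + fld 2 3 (lget EL j) (c / 4)) % 4) / 4 = aF j (c / 4) by omega,
      show (aF j (c / 4) * 4 + (c + sh j + fld 2 3 (lget EL j) (c / 4)) % 4) % 4 =
        (c + sh j + fld 2 3 (lget EL j) (c / 4)) % 4 by omega, gI_pow_mod, gI_pow_mod, smul_smul, smul_smul,
      ← pow_add, ← pow_add, add_comm (sh j)]
  · have e1 : gI ^ (c % 4) • X (dF (c / 4)) = gI ^ (c' % 4) • X (dF (c' / 4)) := congrArg Subtype.val e
    have e2 : dF (c / 4) = dF (c' / 4) := Ln.unique ⟨_, rfl⟩ ⟨_, e1⟩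
    rw [← e2] at e1
    have e3 := pow_inj (Nat.mod_lt _ (by norm_num)) (Nat.mod_lt _ (by norm_num)) _ e1
    have e4 := mdl.inj _ _ (by omega : c / 4 < 4060) (by omega : c' / 4 < 4060) e2
    omega

instance : Finite fourRu := by
  have : Finite φ.ker := Nat.finite_of_card_ne_zero (by rw [← center_eq, card_center]; decide)
  have : Finite Gam := Nat.finite_of_card_ne_zero (by rw [card_Gam]; decide)
  exact CL.Schur.finite_of_ker_of_target φ

theorem baseU : IsBase fourRu dU (· < 16240) [0, 4, 112, 764] := by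
  refine ⟨by decide, fun g hg => ?_⟩
  have h1 : ∀ b : Fin 4060, g • dU (4 * b) = dU (4 * b) → lm g (Xs b) = Xs b := fun b e => by
    rw [dU, smul_def, Nat.mul_mod_right, Nat.mul_div_cancel_left _ (by norm_num), pow_zero, one_smul,
      show dF b = b from Fin.ext (dF_val b.2)] at e
    exact e
  have h2 : ∀ b : Fin 4060, g • dU (4 * b) = dU (4 * b) → φ g • b = b := fun b e =>
    (ln_act g b).unique ⟨0, by rw [h1 b e, pow_zero, one_smul]; rfl⟩
  have h3 : φ g = 1 := eq_one_of_base fun b hb => h2 b (hg _ (by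
    simp only [List.mem_cons, List.not_mem_nil, or_false] at hb ⊢
    rcases hb with rfl | rfl | rfl | rfl <;> decide))
  classical
  have h3' : g ∈ Subgroup.zpowers ι := ker_φ ▸ h3
  obtain ⟨k, hk⟩ := Finset.mem_image.1 (mem_zpowers_iff_mem_range_orderOf.1 h3')
  rw [Finset.mem_range, orderOf_ι] at hk
  have h4 := h1 0 (hg _ (by decide))
  rw [← hk.2, lm_ι_pow] at h4
  have h5 := pow_inj hk.1 (by norm_num : 0 < 4) 0 ((congrArg Subtype.val h4).trans (by
    rw [pow_zero, one_smul]; rfl))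
  rw [← hk.2, h5, pow_zero]

end CL.RuU
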