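/-
Enumeration of the elements of a `2`-group given by a polycyclic sequence in a model.
-/
import Cfsg.Agent.KSG.SchurTab
import Cfsg.Agent.KSG.SchurNet

set_option autoImplicit false

namespace CL.RuU

open CL.K CL.SchurC Subgroup

section grp
variable {G : Type*} [Group G]

/-- the group generated by the first `i` elements -/
def Hs (a : ℕ → G) (i : ℕ) : Subgroup G := closure (a '' {j | j < i})

theorem mem_Hs {a : ℕ → G} {i j : ℕ} (h : j < i) : a j ∈ Hs a i := subset_closure ⟨j, h, rfl⟩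

theorem val_mem_Hs (B : ℕ) (a : ℕ → G) (i x : ℕ) : val B a i x ∈ Hs a i :=
  val_mem _ fun _ hj => Or.inr (mem_Hs hj)

theorem Hs_step {a : ℕ → G} {i : ℕ} (h2 : a i ^ 2 ∈ Hs a i) (h1 : ∀ j < i, (a i)⁻¹ * a j * a i ∈ Hs a i)
    {g : G} (hg : g ∈ Hs a (i + 1)) : g ∈ Hs a i ∨ (a i)⁻¹ * g ∈ Hs a i := by
  have k1 : ∀ k ∈ Hs a i, (a i)⁻¹ * k * a i ∈ Hs a i := fun k hk => by
    induction hk using closure_induction with
    | mem x hx => obtain ⟨j, hj, rfl⟩ := hx; exact h1 j hj
    | one => simp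
    | mul x y _ _ hx hy => convert mul_mem hx hy using 1; group
    | inv x _ hx => convert inv_mem hx using 1; group
  have k2 : ∀ k ∈ Hs a i, a i * k * (a i)⁻¹ ∈ Hs a i := fun k hk => by
    convert mul_mem (mul_mem h2 (k1 k hk)) (inv_mem h2) using 1
    rw [pow_two]; group
  induction hg using closure_induction with
  | mem x hx =>
    obtain ⟨j, hj, rfl⟩ := hx
    rcases Nat.lt_succ_iff_lt_or_eq.1 hj with h | rfl
    · exact Or.inl (mem_Hs h)
    · right; simp
  | one => exact Or.inl (one_mem _)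
  | mul x y _ _ hx hy =>
    rcases hx with hx | hx <;> rcases hy with hy | hy
    · exact Or.inl (mul_mem hx hy)
    · right; convert mul_mem (k1 x hx) hy using 1; group
    · right; convert mul_mem hx hy using 1; group
    · left; convert mul_mem (mul_mem (k2 _ hx) h2) hy using 1; rw [pow_two]; group
  | inv x _ hx =>
    rcases hx with hx | hx
    · exact Or.inl (inv_mem hx)
    · right; convert mul_mem (k1 _ (inv_mem hx)) (inv_mem h2) using 1; rw [pow_two]; group

end grp

variable {G X : Type*} [Group G] [MulAction G X] {I : ℕ → G → Prop} {D : ℕ → X} {V : ℕ → Prop}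
  {act : ℕ → ℕ → ℕ}

/-- the function `f` on codes describes the action of `g` -/
def Rp (D : ℕ → X) (V : ℕ → Prop) (f : ℕ → ℕ) (g : G) : Prop :=
  ∀ c, V c → V (f c) ∧ g • D c = D (f c)

theorem Rp.mul {f f' : ℕ → ℕ} {g g' : G} (h : Rp D V f g) (h' : Rp D V f' g') :
    Rp D V (fun c => frc (f' c) f) (g * g') := fun c hc =>
  ⟨(h _ (h' c hc).1).1, by rw [mul_smul, (h' c hc).2]; exact (h _ (h' c hc).1).2⟩

theorem rp_one : Rp D V (fun c => c) (1 : G) := fun _ hc => ⟨hc, one_smul _ _⟩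

theorem rp_act (M : ActMdl I D V act) {P : ℕ} {g : G} (h : I P g) : Rp D V (act P) g :=
  fun c hc => ⟨M.valid _ _ _ h hc, M.smul _ _ c h hc⟩

theorem rp_val (M : ActMdl I D V act) {A : List ℕ} {a : ℕ → G} {k : ℕ}
    (hA : ∀ j < k, I (lget A j) (a j)) (x : ℕ) : Rp D V (fun c => vact act 1 1 A x c k) (val 1 a k x) :=
  fun _ hc => M.vact_spec (B := 1) hA x hc

theorem rp_pow {f : ℕ → ℕ} {g : G} (h : Rp D V f g) (m : ℕ) :
    Rp D V (fun c => Nat.rec (motive := fun _ => ℕ) c (fun _ r => frc r f) m) (g ^ m) := by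
  induction m with
  | zero => rw [pow_zero]; exact rp_one
  | succ m ih => rw [pow_succ']; exact h.mul ih

/-- equality on the base -/
noncomputable def eqB (base : List ℕ) (f f' : ℕ → ℕ) : Bool := lall (fun c => Nat.beq (f c) (f' c)) base

/-- a difference on the base -/
noncomputable def neB (base : List ℕ) (f f' : ℕ → ℕ) : Bool :=
  lany (fun c => Bool.rec (motive := fun _ => Bool) true false (Nat.beq (f c) (f' c))) base

theorem eqB_spec {base : List ℕ} (hb : IsBase G D V base) {f f' : ℕ → ℕ} {g g' : G} (h : Rp D V f g)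
    (h' : Rp D V f' g') (e : eqB base f f' = true) : g = g' := hb.ext fun c hc => by
  rw [(h c (hb.valid c hc)).2, (h' c (hb.valid c hc)).2, Nat.eq_of_beq_eq_true (lall_iff.1 e c hc)]

theorem neB_spec (M : ActMdl I D V act) {base : List ℕ} (hb : IsBase G D V base) {f f' : ℕ → ℕ} {g g' : G}
    (h : Rp D V f g) (h' : Rp D V f' g') (e : neB base f f' = true) : g ≠ g' := fun t => by
  obtain ⟨c, hc, e⟩ := lany_iff.1 e
  have hv := hb.valid c hc
  rw [M.inj _ _ (h c hv).1 (h' c hv).1 (by rw [← (h c hv).2, ← (h' c hv).2, t]), Nat.beq_refl] at e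
  exact Bool.false_ne_true e

/-- the relations of a polycyclic sequence -/
noncomputable def pcChk (act : ℕ → ℕ → ℕ) (base A : List ℕ) (n W Wm tbl : ℕ) : Bool :=
  allLt (fun i => frc (lget A i) fun P =>
    (frc (ent W Wm tbl (Nat.add (Nat.mul n i) i)) fun x =>
      eqB base (fun c => frc (act P c) (act P)) fun c => vact act 1 1 A x c i) &&
    allLt (fun j => frc (lget A j) fun Q => frc (ent W Wm tbl (Nat.add (Nat.mul n i) j)) fun x =>
      eqB base (fun c => frc (act P c) (act Q)) fun c => frc (vact act 1 1 A x c i) (act P)) i) n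

theorem pcChk_spec (M : ActMdl I D V act) {base : List ℕ} (hb : IsBase G D V base) {A : List ℕ} {a : ℕ → G}
    {n W Wm tbl : ℕ} (hA : ∀ j < n, I (lget A j) (a j)) (h : pcChk act base A n W Wm tbl = true) :
    (∀ i < n, a i ^ 2 ∈ Hs a i) ∧ ∀ i < n, ∀ j < i, (a i)⁻¹ * a j * a i ∈ Hs a i := by
  simp only [pcChk, frc_eq, Bool.and_eq_true, allLt_iff] at h
  refine ⟨fun i hi => ?_, fun i hi j hj => ?_⟩
  · rw [pow_two, eqB_spec hb ((rp_act M (hA i hi)).mul (rp_act M (hA i hi)))
      (rp_val M (fun j hj => hA j (hj.trans hi)) _) (h i hi).1]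
    exact val_mem_Hs _ _ _ _
  · rw [mul_assoc, eqB_spec hb ((rp_act M (hA j (hj.trans hi))).mul (rp_act M (hA i hi)))
      ((rp_act M (hA i hi)).mul (rp_val M (fun j hj => hA j (hj.trans hi)) _)) ((h i hi).2 j hj),
      inv_mul_cancel_left]
    exact val_mem_Hs _ _ _ _

/-- run the test on the products of the elements `1, …, k` -/
noncomputable def enum (w wm : ℕ) (tau : List ℕ) (test : ℕ → (ℕ → ℕ) → Bool) (k : ℕ) :
    ℕ → (ℕ → ℕ) → Bool :=
  Nat.rec (motive := fun _ => ℕ → (ℕ → ℕ) → Bool) test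
    (fun k ih x f => frc (Nat.mul 2 x) fun x' => Bool.rec (motive := fun _ => Bool) false
      (frc (lget tau (Nat.succ k)) fun tb => frc (Nat.succ x') fun x'' =>
        ih x'' fun c => frc (ent w wm tb c) f) (ih x' f)) k

theorem enum_spec {w wm : ℕ} {tau : List ℕ} {test : ℕ → (ℕ → ℕ) → Bool} {a : ℕ → G} {n : ℕ}
    (hr : ∀ i ≤ n, Rp D V (ent w wm (lget tau i)) (a i)) {Φ : G → Prop}
    (ht : ∀ x f g, Rp D V f g → test x f = true → Φ g)
    (h2 : ∀ i ≤ n, a i ^ 2 ∈ Hs a i) (h1 : ∀ i ≤ n, ∀ j < i, (a i)⁻¹ * a j * a i ∈ Hs a i) {k : ℕ}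
    (hk : k ≤ n) {x : ℕ} {f : ℕ → ℕ} {g : G} (hf : Rp D V f g) (h : enum w wm tau test k x f = true)
    {y : G} (hy : y ∈ Hs a (k + 1)) : ∃ g', Φ g' ∧ (g * y = g' ∨ g * y = g' * a 0) := by
  induction k generalizing x f g y with
  | zero =>
    have e : ∀ t ∈ Hs a 0, t = 1 := fun t ht => by
      simpa [Hs] using ht
    refine ⟨g, ht x f g hf h, (Hs_step (h2 0 hk) (h1 0 hk) hy).imp (fun t => ?_) fun t => ?_⟩
    · rw [e _ t, mul_one]
    · rw [← inv_mul_eq_one.1 (e _ t)]
  | succ k ih =>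
    have h' : Bool.rec (motive := fun _ => Bool) false (enum w wm tau test k (2 * x + 1)
      fun c => frc (ent w wm (lget tau (k + 1)) c) f) (enum w wm tau test k (2 * x) f) = true := h
    cases e : enum w wm tau test k (2 * x) f
    · rw [e] at h'; exact absurd h' Bool.false_ne_true
    rw [e] at h'
    rcases Hs_step (h2 _ hk) (h1 _ hk) hy with t | t
    · exact ih (by omega) hf e t
    · have := ih (by omega) (hf.mul (hr _ hk)) h' t
      rwa [mul_assoc, mul_inv_cancel_left] at this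

theorem IsBase.shift {base base' : List ℕ} (hb : IsBase G D V base) {f : ℕ → ℕ} {g : G} (h : Rp D V f g)
    {pt : ℕ → ℕ} {N : ℕ} (hN : ∀ c ∈ base', c < N) (e : ∀ c ∈ base, ∃ c' ∈ base', pt c' = f c) :
    IsBase G (fun x => D (pt x)) (· < N) base' := by
  refine ⟨hN, fun k hk => ?_⟩
  have := hb.eq_one (g⁻¹ * k * g) fun c hc => by
    obtain ⟨c', hc', t⟩ := e c hc
    have h1 := hk c' hc'
    simp only [t] at h1
    rw [mul_smul, mul_smul, (h c (hb.valid c hc)).2, h1, ← (h c (hb.valid c hc)).2, inv_smul_smul]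
  calc k = g * (g⁻¹ * k * g) * g⁻¹ := by group
    _ = 1 := by rw [this]; group

end CL.RuU
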